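import Cfsg.Prelude.Def_Classification2
import Cfsg.Prelude.Def_EvenType
import Cfsg.Agent.H341.ThreeList
import Cfsg.Agent.ChevalleyStructure.ReeCount
import Cfsg.Agent.Cit.TypeDet.Mathieu

/-! The simple groups with a strongly 3-embedded subgroup and noncyclic Sylow 3-subgroups whose order is not divisible
by `3^7` have order less than `|U₆(2)|`. -/

set_option autoImplicit false
open Cfsg

namespace Cfsg.Agent.H732.USix

universe u

/-- the conclusion of S2120 for the group `Y` (without the case of cyclic Sylow subgroups) -/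
def Concl (p : ℕ) (Y : Type u) [Group Y] : Prop :=
  (∃ (F : Type) (_ : Field F) (_ : Fintype F), CharP F p ∧ Nonempty (Y ≃* Matrix.ProjectiveSpecialLinearGroup (Fin 2) F)) ∨
  (∃ (F : Type) (_ : Field F) (_ : Fintype F) (n : ℕ), 1 ≤ n ∧ Fintype.card F = p ^ (2 * n) ∧ Nonempty (Y ≃* Cfsg.PSU 3 F (p ^ n))) ∨
  (∃ (K : Type) (_ : Field K) (_ : Fintype K) (m : ℕ), 1 ≤ m ∧ Fintype.card K = 3 ^ (2 * m + 1) ∧ Nonempty (Y ≃* ↥(Cfsg.Lie.twistedG2 K (3 ^ m)))) ∨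
  Nonempty (Y ≃* ↥(alternatingGroup (Fin (2 * p)))) ∨
  (p = 3 ∧ ((∃ (F : Type) (_ : Field F) (_ : Fintype F), Fintype.card F = 4 ∧ Nonempty (Y ≃* Matrix.ProjectiveSpecialLinearGroup (Fin 3) F)) ∨
    (∃ (F : Type) (_ : Field F) (_ : Fintype F), Fintype.card F = 8 ∧ Nonempty (Y ≃* Matrix.ProjectiveSpecialLinearGroup (Fin 2) F)) ∨
    Cfsg.Spor.IsoM11 Y)) ∨
  (p = 5 ∧ (Cfsg.Lie.IsoTits Y ∨ (∃ (F : Type) (_ : Field F) (_ : Fintype F), Fintype.card F = 32 ∧ Nonempty (Y ≃* ↥(Cfsg.Lie.Sz F 8))) ∨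
    Cfsg.Spor.IsoMcL Y ∨ Cfsg.Spor.IsoFi22 Y)) ∨
  (p = 11 ∧ Cfsg.Spor.IsoJ4 Y)

theorem pow_le_six {k N : ℕ} (h : 3 ^ k ∣ N) (hN : ¬ 3 ^ 7 ∣ N) : k ≤ 6 := by
  by_contra hk
  exact hN ((pow_dvd_pow 3 (by omega)).trans h)

theorem num {Y : Type u} [Group Y] (hD : 9196830720 ≤ Nat.card Y) (hN : ¬ 3 ^ 7 ∣ Nat.card Y)
    (h : Concl 3 Y) : False := by
  rcases h with ⟨F, _, _, hF, ⟨e⟩⟩ | ⟨F, _, _, n, hn, hF, ⟨e⟩⟩ | ⟨K, _, _, m, hm, hK, ⟨e⟩⟩ | ⟨⟨e⟩⟩ |
    ⟨-, ⟨F, _, _, hF, ⟨e⟩⟩ | ⟨F, _, _, hF, ⟨e⟩⟩ | ⟨⟨e⟩⟩⟩ | ⟨h, -⟩ | ⟨h, -⟩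
  · -- `PSL₂(3^k)`
    rw [Nat.card_congr e.toEquiv] at hD hN
    have hc := H341.ThreeList.card_psl (F := F) (n := 2) (by norm_num)
    obtain ⟨k, hk, hkF⟩ := FiniteField.card F 3
    have h3 : ¬ 3 ∣ Nat.gcd 2 (Fintype.card F - 1) := H341.ThreeList.not_dvd_gcd_two
    rw [hkF] at hc h3
    have h4 : (3 ^ (k : ℕ)) ∣ Nat.card (Matrix.ProjectiveSpecialLinearGroup (Fin 2) F) := by
      have h5 : Nat.Coprime (3 ^ (k : ℕ)) (Nat.gcd 2 (3 ^ (k : ℕ) - 1)) :=
        Nat.Coprime.pow_left _ ((Nat.Prime.coprime_iff_not_dvd Nat.prime_three).2 h3)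
      apply h5.dvd_of_dvd_mul_left
      rw [hc]
      norm_num
    have h5 := pow_le_six h4 hN
    have h6 : 1 ≤ Nat.gcd 2 (3 ^ (k : ℕ) - 1) := Nat.gcd_pos_of_pos_left _ (by norm_num)
    have h7 : Nat.card (Matrix.ProjectiveSpecialLinearGroup (Fin 2) F) ≤ 729 * (729 ^ 2 - 1) := by
      calc Nat.card (Matrix.ProjectiveSpecialLinearGroup (Fin 2) F) ≤
          Nat.gcd 2 (3 ^ (k : ℕ) - 1) * Nat.card (Matrix.ProjectiveSpecialLinearGroup (Fin 2) F) :=
            Nat.le_mul_of_pos_left _ h6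
        _ = _ := hc
        _ ≤ _ := by
          have h8 : 3 ^ (k : ℕ) ≤ 729 := by
            calc 3 ^ (k : ℕ) ≤ 3 ^ 6 := Nat.pow_le_pow_right (by norm_num) h5
              _ = 729 := by norm_num
          norm_num [Finset.prod_range_succ]
          have h9 : (3 ^ (k : ℕ)) ^ 2 ≤ 531441 := by
            calc (3 ^ (k : ℕ)) ^ 2 ≤ 729 ^ 2 := Nat.pow_le_pow_left h8 2
              _ = 531441 := by norm_num
          calc 3 ^ (k : ℕ) * ((3 ^ (k : ℕ)) ^ 2 - 1) ≤ 729 * (531441 - 1) := Nat.mul_le_mul h8 (by omega)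
            _ = _ := by norm_num
    norm_num at h7
    omega
  · -- `PSU₃(3^n)`
    rw [Nat.card_congr e.toEquiv] at hD hN
    have hF' : Fintype.card F = (3 ^ n) ^ 2 := by rw [hF, mul_comm, pow_mul]
    have hc := H341.ThreeList.card_psu (F := F) (n := 3) hF' (by norm_num)
    have h3 : Nat.gcd 3 (3 ^ n + 1) = 1 := by
      have h31 : ¬ 3 ∣ 3 ^ n + 1 := by
        intro h
        have : 3 ∣ 3 ^ n := dvd_pow_self 3 (by omega)
        omega
      exact (Nat.Prime.coprime_iff_not_dvd Nat.prime_three).2 h31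
    rw [h3, one_mul] at hc
    norm_num [Finset.prod_range_succ] at hc
    have h4 : 3 ^ (n * 3) ∣ Nat.card (PSU 3 F (3 ^ n)) := by
      rw [hc, pow_mul]
      exact Dvd.intro _ rfl
    have h5 := pow_le_six h4 hN
    have h6 : n = 1 ∨ n = 2 := by omega
    rcases h6 with rfl | rfl
    · norm_num at hc
      simp only [pow_one] at hc hD
      omega
    · norm_num at hc
      norm_num at hD
      omega
  · rw [Nat.card_congr e.toEquiv, ChevalleyStructure.ReeCount.card_twistedG2 hK] at hN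
    apply hN
    have h1 : 3 ^ 7 ∣ (3 ^ (2 * m + 1)) ^ 3 := by
      rw [← pow_mul]
      exact pow_dvd_pow 3 (by omega)
    exact Dvd.dvd.mul_right (Dvd.dvd.mul_right h1 _) _
  · have hc : Nat.card ↥(alternatingGroup (Fin (2 * 3))) = 360 := by
      have := nat_card_alternatingGroup (α := Fin 6)
      rw [show 2 * 3 = 6 from rfl, this]
      simp [Nat.factorial]
    rw [Nat.card_congr e.toEquiv, hc] at hD
    omega
  · rw [Nat.card_congr e.toEquiv] at hD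
    have hc := H341.ThreeList.card_psl (F := F) (n := 3) (by norm_num)
    rw [hF] at hc
    norm_num [Finset.prod_range_succ] at hc
    omega
  · rw [Nat.card_congr e.toEquiv] at hD
    have hc := H341.ThreeList.card_psl (F := F) (n := 2) (by norm_num)
    rw [hF] at hc
    norm_num [Finset.prod_range_succ] at hc
    omega
  · rw [Nat.card_congr e.toEquiv, Cit.TypeDet.card_M11'] at hD
    omega
  · omega
  · omega

end Cfsg.Agent.H732.USix
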