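import Cfsg.Agent.H732.USixDiag
import Cfsg.Agent.H732.USixNum
import Cfsg.Agent.H233.Simple
import Cfsg.Agent.H818.StrP.Gen
import Cfsg.Agent.Schreier.Basic

/-! S3338: the normalizer of a `2^20` with complement `U₆(2)(.2)` is not strongly 3-embedded; generic part. -/

set_option autoImplicit false
open Cfsg Subgroup

namespace Cfsg.Agent.H732.USix

universe u

/-- the facts on `U₆(2)` we use -/
structure U6 (S : Type*) [Group S] : Prop where
  simple : IsSimpleGroup S
  center : Subgroup.center S = ⊥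
  perfect : ⁅(⊤ : Subgroup S), (⊤ : Subgroup S)⁆ = ⊤
  nine : ∃ E : Subgroup S, IsElementaryAbelian 3 E ∧ Nat.card E = 9
  card : Nat.card S = 9196830720

theorem center_of_nine {S : Type*} [Group S] [IsSimpleGroup S] {E : Subgroup S} (hE : Nat.card E = 9)
    (hS : Nat.card S = 9196830720) : Subgroup.center S = ⊥ := by
  rcases (inferInstance : (Subgroup.center S).Normal).eq_bot_or_eq_top with h | h
  · exact h
  · exfalso
    have hn : E.Normal := ⟨fun x hx g => by
      have h1 : g ∈ Subgroup.center S := by rw [h]; trivial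
      rw [← (mem_center_iff.1 h1 x), mul_inv_cancel_right]
      exact hx⟩
    rcases hn.eq_bot_or_eq_top with h1 | h1
    · rw [h1, Subgroup.card_bot] at hE
      omega
    · rw [h1, Subgroup.card_top, hS] at hE
      omega

theorem u6_psu {F : Type*} [Field F] [Fintype F] (hF : Fintype.card F = 4) : U6 (PSU 6 F 2) := by
  have hs := simple_psu6 hF
  obtain ⟨E, hE, hE9⟩ := exists_nine hF
  have hcard := card_psu6 hF
  have hc := center_of_nine hE9 hcard
  refine ⟨hs, hc, ?_, ⟨E, hE, hE9⟩, hcard⟩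
  have hcn : (⁅(⊤ : Subgroup (PSU 6 F 2)), (⊤ : Subgroup (PSU 6 F 2))⁆ : Subgroup (PSU 6 F 2)).Normal := inferInstance
  rcases hcn.eq_bot_or_eq_top with h | h
  · exfalso
    rw [Subgroup.commutator_eq_bot_iff_le_centralizer] at h
    have h1 : (⊤ : Subgroup (PSU 6 F 2)) ≤ Subgroup.center _ := by
      refine h.trans ?_
      intro x hx
      rw [mem_center_iff]
      intro y
      exact (mem_centralizer_iff.1 hx y (by trivial))
    rw [hc, le_bot_iff] at h1
    have h2 := hcard
    rw [← Subgroup.card_top, h1, Subgroup.card_bot] at h2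
    omega
  · exact h

theorem U6.congr {S T : Type*} [Group S] [Group T] (h : U6 S) (e : S ≃* T) : U6 T := by
  have hs := h.simple
  have hnt : Nontrivial T := e.symm.toEquiv.nontrivial
  have hT : IsSimpleGroup T := IsSimpleGroup.isSimpleGroup_of_surjective e.toMonoidHom e.surjective
  have hcard : Nat.card T = 9196830720 := by rw [← Nat.card_congr e.toEquiv]; exact h.card
  obtain ⟨E, hE, hE9⟩ := h.nine
  have hE' : Nat.card (E.map e.toMonoidHom) = 9 := by
    rw [Subgroup.card_map_of_injective e.injective, hE9]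
  refine ⟨hT, center_of_nine hE' hcard, ?_, ⟨E.map e.toMonoidHom, ⟨?_, ?_⟩, hE'⟩, hcard⟩
  · have h1 := congrArg (Subgroup.map e.toMonoidHom) h.perfect
    rw [Subgroup.map_commutator, Subgroup.map_top_of_surjective _ e.surjective] at h1
    exact h1
  · have := hE.1
    exact ⟨⟨by
      rintro ⟨_, x, hx, rfl⟩ ⟨_, y, hy, rfl⟩
      apply Subtype.ext
      show e x * e y = e y * e x
      rw [← map_mul, ← map_mul]
      congr 1
      exact congrArg Subtype.val (hE.1.is_comm.comm ⟨x, hx⟩ ⟨y, hy⟩)⟩⟩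
  · rintro _ ⟨x, hx, rfl⟩
    show e x ^ 3 = 1
    rw [← map_pow, hE.2 x hx, map_one]

theorem card_sup_dvd {G : Type*} [Group G] (H N : Subgroup G) (h : H ≤ normalizer (N : Set G)) :
    Nat.card ↥(H ⊔ N) ∣ Nat.card H * Nat.card N := by
  let _ := Subgroup.normal_subgroupOf_of_le_normalizer h
  let _ := Subgroup.normal_subgroupOf_sup_of_le_normalizer h
  have e := (QuotientGroup.quotientInfEquivProdNormalizerQuotient H N h).toEquiv
  have h1 : (N.subgroupOf H).index = (N.subgroupOf (H ⊔ N)).index := Nat.card_congr e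
  have h2 := Subgroup.card_mul_index (N.subgroupOf (H ⊔ N))
  rw [Nat.card_congr (Subgroup.subgroupOfEquivOfLe (le_sup_right : N ≤ H ⊔ N)).toEquiv, ← h1] at h2
  rw [← h2, mul_comm]
  exact Nat.mul_dvd_mul (Subgroup.index_dvd_card _) dvd_rfl

/-- the group theoretic part -/
theorem core {X : Type u} [Group X] [Finite X]
    (hSch : ∀ Y : Subgroup X, IsSimpleGroup Y → ¬ IsMulCommutative Y → Schreier.Basic.Sch Y)
    (h2120 : ∀ H : Subgroup X, IsStronglyPEmbedded 3 H → IsSimpleGroup ↥(generalizedFittingSubgroup X) →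
      ¬ IsMulCommutative ↥(generalizedFittingSubgroup X) →
      (∀ P : Sylow 3 X, IsCyclic P) ∨ Concl 3 ↥(generalizedFittingSubgroup X))
    (A : Subgroup X) (hA : Nat.card A = 2 ^ 20)
    (H : Subgroup X) (hH : H = Subgroup.normalizer (A : Set X))
    (K : Subgroup X) (hKH : K ≤ H) (hAK : A ⊓ K = ⊥) (hHAK : A ⊔ K = H)
    (K₁ : Subgroup X) (hK1 : K₁ ≤ K) (hKn : K ≤ normalizer (K₁ : Set X)) (hU : U6 K₁)
    (hcen : ∀ x ∈ K, (∀ k ∈ K₁, x * k = k * x) → x = 1) (hcardK : Nat.card K ∣ 2 * Nat.card K₁)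
    (hmin : ∀ B : Subgroup X, B ≤ A → (∀ h ∈ H, ∀ b ∈ B, h * b * h⁻¹ ∈ B) → B = ⊥ ∨ B = A)
    (hHt : H ≠ ⊤) (hH3 : ∀ g : X, g ∉ H → ¬ 3 ∣ Nat.card ↥(H ⊓ H.map (MulAut.conj g).toMonoidHom)) : False := by
  have h3 : Fact (Nat.Prime 3) := ⟨Nat.prime_three⟩
  have hAH : A ≤ H := by rw [← hHAK]; exact le_sup_left
  have hK1H : K₁ ≤ H := hK1.trans hKH
  have h3H : 3 ∣ Nat.card H := by
    have h1 : 3 ∣ Nat.card K₁ := by rw [hU.card]; norm_num
    exact h1.trans (card_dvd_of_le hK1H)
  have hSP : IsStronglyPEmbedded 3 H := EvenType.StrongP.of_inter h3H hHt hH3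
  -- the elementary abelian group of order 9
  obtain ⟨E₀, hE0, hE09⟩ := hU.nine
  obtain ⟨E, hEdef⟩ : ∃ E : Subgroup X, E = E₀.map K₁.subtype := ⟨_, rfl⟩
  have hE9 : Nat.card E = 9 := by
    rw [hEdef, Subgroup.card_map_of_injective K₁.subtype_injective, hE09]
  have hEK : E ≤ K₁ := by rw [hEdef]; exact Subgroup.map_subtype_le _
  have hE : IsElementaryAbelian 3 E := by
    rw [hEdef]
    refine ⟨⟨⟨?_⟩⟩, ?_⟩
    · rintro ⟨_, x, hx, rfl⟩ ⟨_, y, hy, rfl⟩
      apply Subtype.ext
      show (x : X) * y = y * x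
      have h1 := congrArg (fun z : E₀ => ((z : K₁) : X)) (hE0.1.is_comm.comm ⟨x, hx⟩ ⟨y, hy⟩)
      exact h1
    · rintro _ ⟨x, hx, rfl⟩
      have := congrArg Subtype.val (hE0.2 x hx)
      simpa using this
  have hEH : E ≤ H := hEK.trans hK1H
  -- normal `3'`-subgroups of `K` are trivial
  have hN : ∀ N : Subgroup X, N ≤ K → K ≤ normalizer (N : Set X) → ¬ 3 ∣ Nat.card N → N = ⊥ := by
    intro N hNK hKN hN3
    have hs := hU.simple
    have h1 : (N.subgroupOf K₁).Normal := Subgroup.normal_subgroupOf_of_le_normalizer (hK1.trans hKN)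
    rcases h1.eq_bot_or_eq_top with h2 | h2
    · rw [Subgroup.subgroupOf_eq_bot, disjoint_iff] at h2
      rw [eq_bot_iff]
      intro x hx
      rw [mem_bot]
      refine hcen x (hNK hx) ?_
      intro k hk
      have h3 : x * k * x⁻¹ * k⁻¹ ∈ N ⊓ K₁ := by
        refine ⟨?_, ?_⟩
        · have h4 : k * x⁻¹ * k⁻¹ ∈ N := (mem_normalizer_iff.1 (hKN (hK1 hk)) x⁻¹).1 (N.inv_mem hx)
          have h5 : x * k * x⁻¹ * k⁻¹ = x * (k * x⁻¹ * k⁻¹) := by group
          rw [h5]
          exact N.mul_mem hx h4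
        · exact K₁.mul_mem ((mem_normalizer_iff.1 (hKn (hNK hx)) k).1 hk) (K₁.inv_mem hk)
      rw [h2, mem_bot] at h3
      have h4 : x * k * x⁻¹ = k := by
        have := mul_eq_one_iff_eq_inv.1 h3
        rw [inv_inv] at this
        exact this
      have h5 := mul_inv_eq_iff_eq_mul.1 h4
      exact h5
    · exfalso
      apply hN3
      rw [Subgroup.subgroupOf_eq_top] at h2
      have h4 : 3 ∣ Nat.card K₁ := by rw [hU.card]; norm_num
      exact h4.trans (card_dvd_of_le h2)
  -- `A` is normalized by `H`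
  have hHA : H ≤ normalizer (A : Set X) := hH.le
  -- `O_{3'}(X) = 1`
  have hW : pPrimeCore 3 X = ⊥ := by
    have hWn : (pPrimeCore 3 X).Normal := Lib.Cores.pPrimeCore_normal 3
    have hWc : (Nat.card (pPrimeCore 3 X)).Coprime 3 := Lib.Cores.pPrimeCore_coprime 3
    obtain ⟨W, hWdef⟩ : ∃ W : Subgroup X, W = pPrimeCore 3 X := ⟨_, rfl⟩
    rw [← hWdef] at hWn hWc ⊢
    have hW3 : ¬ 3 ∣ Nat.card W := by
      intro h
      have := Nat.Coprime.eq_one_of_dvd hWc.symm h
      omega
    have hWH : W ≤ H := by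
      refine H818.StrP.coprime_le hSP hE (by rw [hE9]; norm_num) hEH hW3 ?_
      rw [Subgroup.normalizer_eq_top]
      exact le_top
    -- `(A ⊔ W) ⊓ K = ⊥`
    have hAWcard : ¬ 3 ∣ Nat.card ↥(A ⊔ W) := by
      intro h
      have h1 : Nat.card ↥(A ⊔ W) ∣ Nat.card A * Nat.card W := by
        rw [sup_comm, mul_comm]
        exact Lib.Cores.card_sup_dvd W A hWn
      have h2 := h.trans h1
      rcases (Nat.Prime.dvd_mul Nat.prime_three).1 h2 with h3 | h3
      · rw [hA] at h3
        norm_num at h3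
      · exact hW3 h3
    have h1 : (A ⊔ W) ⊓ K = ⊥ := by
      apply hN _ inf_le_right
      · refine le_trans ?_ (Subgroup.inf_normalizer_le_normalizer_inf)
        refine le_inf ?_ (Subgroup.le_normalizer)
        refine le_trans ?_ (Subgroup.normalizer_inf_normalizer_le_normalizer_sup A W)
        refine le_inf (hKH.trans hHA) ?_
        rw [Subgroup.normalizer_eq_top W]
        exact le_top
      · intro h
        exact hAWcard (h.trans (card_dvd_of_le inf_le_left))
    have hWA : W ≤ A := by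
      intro w hw
      have h2 : w ∈ A ⊔ K := by rw [hHAK]; exact hWH hw
      have hKA : K ≤ normalizer (A : Set X) := hKH.trans hHA
      rw [← SetLike.mem_coe, Subgroup.coe_mul_of_right_le_normalizer_left A K hKA] at h2
      obtain ⟨a, ha, k, hk, hak⟩ := h2
      replace hak : a * k = w := hak
      subst hak
      have h3 : k ∈ (A ⊔ W) ⊓ K := by
        refine ⟨?_, hk⟩
        have : k = a⁻¹ * (a * k) := by group
        rw [this]
        exact (A ⊔ W).mul_mem ((A ⊔ W).inv_mem (mem_sup_left ha)) (mem_sup_right hw)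
      rw [h1, mem_bot] at h3
      rw [h3, mul_one]
      exact ha
    rcases hmin W hWA (fun h _ b hb => hWn.conj_mem b hb h) with h2 | h2
    · exact h2
    · exfalso
      apply hHt
      rw [hH, ← h2, Subgroup.normalizer_eq_top]
  -- `F*(X)` is simple
  obtain ⟨hYs, hYn⟩ := H233.Simple.simple_genFitting hSP hW
  have hYnorm : (generalizedFittingSubgroup X).Normal := Lib.GenFitting.genFitting_normal
  have hYc : centralizer (generalizedFittingSubgroup X : Set X) = ⊥ := by
    have h1 := SignalizersComponents.CompOrbit.inf_centralizer_self_le_pCore (p := 3) hW hYnorm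
    rw [H233.Simple.pCore_eq_bot hSP, le_bot_iff] at h1
    have h2 := Lib.GenFitting.centralizer_genFitting_le (G := X)
    rw [← h1]
    exact (inf_eq_right.2 h2).symm
  obtain ⟨Y, hYdef⟩ : ∃ Y : Subgroup X, Y = generalizedFittingSubgroup X := ⟨_, rfl⟩
  have hC := h2120 H hSP hYs hYn
  rw [← hYdef] at hYs hYn hYnorm hYc hC
  -- `K₁ ≤ Y`
  have hKY : K₁ ≤ Y := by
    have hsch := hSch Y hYs hYn
    let φ : X →* MulAut Y := MulAut.conjNormal
    have h1 : ⁅K₁, K₁⁆ = K₁ := by
      have h2 := congrArg (Subgroup.map K₁.subtype) hU.perfect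
      rw [Subgroup.map_commutator, ← MonoidHom.range_eq_map, Subgroup.range_subtype] at h2
      exact h2
    have h2 := hsch (K₁.map φ) (Schreier.Basic.map_perfect φ h1)
    intro k hk
    obtain ⟨y, hy⟩ := h2 ⟨k, hk, rfl⟩
    have h3 : (y : X)⁻¹ * k ∈ centralizer (Y : Set X) := by
      rw [mem_centralizer_iff]
      intro z hz
      have h4 := congrArg Subtype.val (DFunLike.congr_fun hy ⟨z, hz⟩)
      have h5 : (y : X) * z * (y : X)⁻¹ = k * z * k⁻¹ := h4
      have h6 : z = (y : X)⁻¹ * (k * z * k⁻¹) * y := by rw [← h5]; group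
      calc z * ((y : X)⁻¹ * k) = ((y : X)⁻¹ * (k * z * k⁻¹) * y) * ((y : X)⁻¹ * k) := by rw [← h6]
        _ = (y : X)⁻¹ * k * z := by group
    rw [hYc, mem_bot] at h3
    have h4 : k = y := by
      have := inv_mul_eq_one.1 h3
      exact this.symm
    rw [h4]
    exact y.2
  -- the numbers
  have hH7 : ¬ 3 ^ 7 ∣ Nat.card H := by
    intro h
    have h1 : Nat.card H ∣ Nat.card A * Nat.card K := by
      have hKA : K ≤ normalizer (A : Set X) := hKH.trans hHA
      rw [← hHAK, sup_comm, mul_comm]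
      exact card_sup_dvd K A hKA
    have h2 : 3 ^ 7 ∣ 2 ^ 20 * (2 * 9196830720) := by
      rw [← hU.card]
      refine h.trans (h1.trans ?_)
      rw [hA]
      exact Nat.mul_dvd_mul dvd_rfl hcardK
    norm_num at h2
  obtain ⟨P, hPH, -, -⟩ := H569.Strong.exists_sylow hSP
  have hX7 : ¬ 3 ^ 7 ∣ Nat.card X := by
    intro h
    obtain ⟨Q, hQ⟩ := Sylow.exists_subgroup_card_pow_prime 3 h
    have hQp : IsPGroup 3 Q := IsPGroup.of_card hQ
    obtain ⟨R, hR⟩ := hQp.exists_le_sylow
    apply hH7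
    have h1 : Nat.card Q ∣ Nat.card R := card_dvd_of_le hR
    rw [hQ] at h1
    refine h1.trans ?_
    rw [Nat.card_congr (R.equiv P).toEquiv]
    exact card_dvd_of_le hPH
  rcases hC with hC | hC
  · have hEp : IsPGroup 3 E := IsPGroup.of_card (n := 2) (by rw [hE9]; norm_num)
    obtain ⟨R, hR⟩ := hEp.exists_le_sylow
    have hRc := hC R
    have hEc : IsCyclic (E.subgroupOf R) := inferInstance
    have h1 : Nat.card (E.subgroupOf (R : Subgroup X)) = 9 := by
      rw [Nat.card_congr (Subgroup.subgroupOfEquivOfLe hR).toEquiv, hE9]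
    obtain ⟨x, hx⟩ := IsCyclic.exists_ofOrder_eq_natCard (α := E.subgroupOf (R : Subgroup X))
    have h2 : orderOf x ∣ 3 := by
      apply orderOf_dvd_of_pow_eq_one
      apply Subtype.ext
      apply Subtype.ext
      have := hE.2 ((x : R) : X) x.2
      simpa using this
    rw [hx, h1] at h2
    norm_num at h2
  · refine num ?_ ?_ hC
    · rw [← hU.card]
      exact Nat.le_of_dvd Nat.card_pos (card_dvd_of_le hKY)
    · intro h
      exact hX7 (h.trans (Subgroup.card_subgroup_dvd_card Y))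

/-- **S3338** from S0000, the Schreier property and S2120. -/
theorem main {X : Type u} [Group X] [Finite X]
    (hSch : ∀ Y : Subgroup X, IsSimpleGroup Y → ¬ IsMulCommutative Y → Schreier.Basic.Sch Y)
    (h2120 : ∀ H : Subgroup X, IsStronglyPEmbedded 3 H → IsSimpleGroup ↥(generalizedFittingSubgroup X) →
      ¬ IsMulCommutative ↥(generalizedFittingSubgroup X) →
      (∀ P : Sylow 3 X, IsCyclic P) ∨ Concl 3 ↥(generalizedFittingSubgroup X))
    (A : Subgroup X) (hA : Nat.card A = 2 ^ 20)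
    (H : Subgroup X) (hH : H = Subgroup.normalizer (A : Set X))
    (K : Subgroup X) (hKH : K ≤ H) (hAK : A ⊓ K = ⊥) (hHAK : A ⊔ K = H)
    (F : Type*) [Field F] [Fintype F] (hF : Fintype.card F = 4)
    (hK : Nonempty (K ≃* Cfsg.PSU 6 F 2) ∨
      ∃ K₀ : Subgroup K, K₀.Normal ∧ K₀.index = 2 ∧ Nonempty (K₀ ≃* Cfsg.PSU 6 F 2) ∧
        Subgroup.centralizer (K₀ : Set K) = ⊥)
    (hmin : ∀ B : Subgroup X, B ≤ A → (∀ h ∈ H, ∀ b ∈ B, h * b * h⁻¹ ∈ B) → B = ⊥ ∨ B = A) :
    H = ⊤ ∨ ∃ g : X, g ∉ H ∧ 3 ∣ Nat.card ↥(H ⊓ H.map (MulAut.conj g).toMonoidHom) := by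
  by_contra hcon
  push Not at hcon
  obtain ⟨hHt, hH3⟩ := hcon
  rcases hK with ⟨⟨e⟩⟩ | ⟨K₀, hn, hi, ⟨e⟩, hc⟩
  · have hU : U6 K := (u6_psu hF).congr e.symm
    refine core hSch h2120 A hA H hH K hKH hAK hHAK K le_rfl le_normalizer hU ?_ (Dvd.intro_left _ rfl) hmin hHt hH3
    intro x hx hxc
    have h1 : (⟨x, hx⟩ : K) ∈ Subgroup.center K := by
      rw [mem_center_iff]
      rintro ⟨y, hy⟩
      exact Subtype.ext (hxc y hy).symm
    rw [hU.center, mem_bot] at h1
    exact congrArg Subtype.val h1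
  · have e' : ↥(K₀.map K.subtype) ≃* PSU 6 F 2 :=
      (K₀.equivMapOfInjective K.subtype K.subtype_injective).symm.trans e
    have hU : U6 ↥(K₀.map K.subtype) := (u6_psu hF).congr e'.symm
    refine core hSch h2120 A hA H hH K hKH hAK hHAK (K₀.map K.subtype) (Subgroup.map_subtype_le _) ?_ hU ?_ ?_
      hmin hHt hH3
    · rw [Subgroup.le_normalizer_iff]
      rintro h hh _ ⟨k, hk, rfl⟩
      exact ⟨⟨h, hh⟩ * k * ⟨h, hh⟩⁻¹, hn.conj_mem k hk _, rfl⟩
    · intro x hx hxc
      have h1 : (⟨x, hx⟩ : K) ∈ Subgroup.centralizer (K₀ : Set K) := by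
        rw [mem_centralizer_iff]
        intro y hy
        exact Subtype.ext (hxc y ⟨y, hy, rfl⟩).symm
      rw [hc, mem_bot] at h1
      exact congrArg Subtype.val h1
    · rw [Subgroup.card_map_of_injective K.subtype_injective, ← hi, mul_comm, Subgroup.card_mul_index]

end Cfsg.Agent.H732.USix
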