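import Cfsg.Agent.H732.DegRee

/-!
# A character degree of the small Ree groups divisible by four (for S5009)
-/

set_option autoImplicit false

open Cfsg

namespace Cfsg.Agent.H732.FourRee

universe u

/-- **`4` divides the degree `q³ + 1` of the small Ree group.** -/
theorem im_four (S : Type u) [Group S] (h : Lie.IsoRee S) (_hs : IsSimpleGroup S) : H33.IM 4 S := by
  obtain ⟨m, hm, F, hc⟩ := DegRee.facts_of_iso h
  have ar := LieRecognition.ReeClass.arith m
  obtain ⟨χ, hd⟩ := F.ps
  refine ⟨χ, ?_⟩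
  have h8 := ar.q8
  have h1 : (3 ^ (2 * m + 1)) ^ 3 % 8 = 3 := by
    rw [Nat.pow_mod, h8]
  rw [hd]
  omega

end Cfsg.Agent.H732.FourRee
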